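import Cfsg.Agent.Lib.CharClifford.Gallagher
import Cfsg.Agent.Lib.CharClifford.Extend
import Cfsg.Agent.Lib.CharClifford.Correspondence
import Mathlib.GroupTheory.Sylow
import Mathlib.GroupTheory.Complement
import Mathlib.GroupTheory.SpecificGroups.Cyclic

/-!
# Fully ramified characters over a normal subgroup
-/

namespace Cfsg.Agent.Lib.CharClifford.FullyRamified

open Cfsg Cfsg.Agent.Lib Cfsg.Agent.Lib.Char
open scoped ComplexConjugate

set_option linter.unusedSectionVars false
set_option linter.style.haveILetI false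

universe u v

variable {G : Type u} [Group G] [Fintype G]

/-- Constituents of constituents are constituents, along a homomorphism. -/
theorem pullback_ne_zero {A : Type v} [Group A] [Fintype A] (f : A →* G) {ψ φ : G → ℂ}
    (hψ : IsCharacter G ψ) (hφ : IsIrrCharacter G φ) (h1 : classInner ψ φ ≠ 0)
    {θ : A → ℂ} (hθ : IsCharacter A θ) (h2 : classInner (fun a => φ (f a)) θ ≠ 0) :
    classInner (fun a => ψ (f a)) θ ≠ 0 := by
  classical
  choose n hn using fun ξ : IrrCharacter G => classInner_natCast hψ (isCharacter_of_isIrr ξ.2)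
  choose m hm using fun ξ : IrrCharacter G => classInner_natCast (G := A)
    (isCharacter_comp (isCharacter_of_isIrr ξ.2) f) hθ
  have hexp : (fun a => ψ (f a)) =
      ∑ ξ : IrrCharacter G, (n ξ : ℂ) • ((ξ : G → ℂ) ∘ f) := by
    funext a
    conv_lhs => rw [eq_sum_classInner_smul (isClassFunction_of_isCharacter hψ)]
    simp [hn]
  rw [hexp, classInner_sum_left]
  simp only [classInner_smul_left, hm]
  intro hz
  have hz' : ∑ ξ : IrrCharacter G, n ξ * m ξ = 0 := by exact_mod_cast hz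
  rcases mul_eq_zero.1 (Finset.sum_eq_zero_iff.1 hz' ⟨φ, hφ⟩ (Finset.mem_univ _)) with h | h
  · exact h1 (by rw [hn ⟨φ, hφ⟩, h, Nat.cast_zero])
  · exact h2 (by
      have := hm ⟨φ, hφ⟩
      rw [h, Nat.cast_zero] at this
      exact this)

/-- `χ` restricts to `e θ` with `e ^ 2` the index. -/
structure Ram (Z : Subgroup G) (θ : Z → ℂ) (χ : G → ℂ) : Prop where
  irr_base : IsIrrCharacter Z θ
  irr : IsIrrCharacter G χ
  mult : ∃ e : ℕ, e ^ 2 = Z.index ∧ ∀ z : Z, χ z = (e : ℂ) * θ z

variable {Z : Subgroup G} [Fintype Z] {θ : Z → ℂ} {χ : G → ℂ}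

lemma Ram.exists_e (h : Ram Z θ χ) : ∃ e : ℕ, e ≠ 0 ∧ e ^ 2 = Z.index ∧
    (fun z : Z => χ z) = (e : ℂ) • θ ∧ classInner (fun z : Z => χ z) θ = (e : ℂ) := by
  obtain ⟨e, he, hres⟩ := h.mult
  have he0 : e ≠ 0 := fun h0 => Subgroup.index_ne_zero_of_finite (H := Z) (by rw [← he, h0]; rfl)
  have h1 : (fun z : Z => χ z) = (e : ℂ) • θ := funext fun z => by
    rw [hres z, Pi.smul_apply, smul_eq_mul]
  exact ⟨e, he0, he, h1, by rw [h1, classInner_smul_left, classInner_irr_self h.irr_base, mul_one]⟩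

lemma Ram.conj_eq [Z.Normal] (h : Ram Z θ χ) (g : G) : conjChar Z g θ = θ := by
  obtain ⟨e, he0, -, he, -⟩ := h.exists_e
  funext z
  have h1 : (e : ℂ) * conjChar Z g θ z = (e : ℂ) * θ z := by
    have h2 := congrFun he ⟨g * z * g⁻¹, (inferInstance : Z.Normal).conj_mem z z.2 g⟩
    have h3 := congrFun he z
    simp only [Pi.smul_apply, smul_eq_mul] at h2 h3
    rw [conjChar_apply, ← h2, ← h3, isClassFunction_of_isIrr h.irr]
  exact mul_left_cancel₀ (Nat.cast_ne_zero.2 he0) h1

/-- Squared values summed over a subgroup. -/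
lemma sum_normSq_subgroup (S : Subgroup G) [Fintype S] (f : G → ℂ) :
    ((∑ s : S, Complex.normSq (f s) : ℝ) : ℂ) =
      (Nat.card S : ℂ) * classInner (fun s : S => f s) (fun s : S => f s) := by
  rw [classInner, ← mul_assoc, mul_inv_cancel₀ (card_ne_zero_complex S), one_mul,
    Complex.ofReal_sum]
  exact Finset.sum_congr rfl fun s _ => (Complex.mul_conj _).symm

/-- A sum split along a subgroup. -/
lemma sum_split (S : Subgroup G) [Fintype S] [DecidablePred (· ∈ S)] (f : G → ℝ) :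
    ∑ x : G, f x = (∑ s : S, f s) + ∑ x ∈ Finset.univ.filter (fun x => x ∉ S), f x := by
  rw [← Finset.sum_filter_add_sum_filter_not Finset.univ (fun x => x ∈ S)]
  congr 1
  exact Finset.sum_subtype _ (fun x => by simp [Finset.mem_filter]) f

lemma Ram.vanish (h : Ram Z θ χ) {g : G} (hg : g ∉ Z) : χ g = 0 := by
  classical
  obtain ⟨e, -, he2, he, -⟩ := h.exists_e
  have h1 : ∑ z : Z, Complex.normSq (χ z) = (Nat.card G : ℝ) := by
    have h2 := sum_normSq_subgroup Z χ
    rw [he, classInner_smul_left, classInner_smul_right, classInner_irr_self h.irr_base, mul_one,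
      map_natCast, ← Nat.cast_mul, ← Nat.cast_mul, ← sq, he2, Subgroup.card_mul_index] at h2
    exact_mod_cast h2
  have h3 : ∑ x : G, Complex.normSq (χ x) = (Nat.card G : ℝ) := by
    have h4 : ((∑ x : G, Complex.normSq (χ x) : ℝ) : ℂ) = (Nat.card G : ℂ) * classInner χ χ := by
      rw [classInner, ← mul_assoc, mul_inv_cancel₀ (card_ne_zero_complex G), one_mul,
        Complex.ofReal_sum]
      exact Finset.sum_congr rfl fun s _ => (Complex.mul_conj _).symm
    rw [classInner_irr_self h.irr, mul_one] at h4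
    exact_mod_cast h4
  rw [sum_split Z] at h3
  have h5 : ∑ x ∈ Finset.univ.filter (fun x => ¬ x ∈ Z), Complex.normSq (χ x) = 0 := by linarith
  exact Complex.normSq_eq_zero.1
    ((Finset.sum_eq_zero_iff_of_nonneg fun x _ => Complex.normSq_nonneg _).1 h5 g (by simp [hg]))

lemma Ram.indFun_base [Z.Normal] (h : Ram Z θ χ) :
    ∃ e : ℕ, indFun Z θ = (e : ℂ) • χ := by
  obtain ⟨e, -, he2, he, -⟩ := h.exists_e
  refine ⟨e, funext fun g => ?_⟩
  by_cases hg : g ∈ Z
  · have h1 := congrFun (indFun_restrict_invariant Z h.conj_eq) ⟨g, hg⟩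
    have h2 := congrFun he ⟨g, hg⟩
    simp only [Pi.smul_apply, smul_eq_mul] at h1 h2 ⊢
    rw [h1, h2, ← he2, Nat.cast_pow]
    ring
  · rw [indFun_apply_of_not_mem Z θ hg, Pi.smul_apply, h.vanish hg, smul_zero]

/-- The only irreducible character over `θ`. -/
lemma Ram.eq_of_over [Z.Normal] (h : Ram Z θ χ) {ψ : G → ℂ} (hψ : IsIrrCharacter G ψ)
    (hover : classInner (fun z : Z => ψ z) θ ≠ 0) : ψ = χ := by
  obtain ⟨e, he⟩ := h.indFun_base
  by_contra hne
  apply hover
  rw [← classInner_indFun_right Z θ (isClassFunction_of_isIrr hψ), he, classInner_smul_right,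
    classInner_irr_ne hψ h.irr hne, mul_zero]

/-- Constituents of the restriction of `χ` lie over `θ`. -/
lemma Ram.over_of_constituent (h : Ram Z θ χ) {R : Subgroup G} [Fintype R] (hZR : Z ≤ R)
    {φ : R → ℂ} (hφ : IsIrrCharacter R φ) (hne : classInner (fun r : R => χ r) φ ≠ 0) :
    classInner (fun z : Z => φ ⟨z, hZR z.2⟩) θ ≠ 0 := by
  classical
  obtain ⟨e, -, -, he, -⟩ := h.exists_e
  obtain ⟨ζ, hζ⟩ := exists_constituent (G := Z) (φ := fun z : Z => φ ⟨z, hZR z.2⟩)
    (isCharacter_comp (isCharacter_of_isIrr hφ) (Subgroup.inclusion hZR))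
    (fun h0 => irr_degree_ne_zero hφ (congrFun h0 1))
  have h1 : classInner (fun z : Z => χ z) (ζ : Z → ℂ) ≠ 0 :=
    pullback_ne_zero (Subgroup.inclusion hZR) (ψ := fun r : R => χ r)
      (isCharacter_restrict (isCharacter_of_isIrr h.irr) R) hφ hne (isCharacter_of_isIrr ζ.2) hζ
  rw [he, classInner_smul_left] at h1
  have h2 : θ = (ζ : Z → ℂ) := by
    by_contra h3
    exact right_ne_zero_of_mul h1 (classInner_irr_ne h.irr_base ζ.2 h3)
  rwa [h2]

/-- Characters over `θ` of an intermediate normal subgroup are constituents of `χ`. -/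
lemma Ram.constituent_of_over [Z.Normal] (h : Ram Z θ χ) {R : Subgroup G} [Fintype R] (hZR : Z ≤ R)
    {φ : R → ℂ} (hφ : IsIrrCharacter R φ)
    (hover : classInner (fun z : Z => φ ⟨z, hZR z.2⟩) θ ≠ 0) :
    classInner (fun r : R => χ r) φ ≠ 0 := by
  obtain ⟨ψ, hψ⟩ := exists_irr_over (G := G) (N := R) hφ
  have h1 : classInner (fun z : Z => (ψ : G → ℂ) z) θ ≠ 0 :=
    pullback_ne_zero (Subgroup.inclusion hZR) (ψ := fun r : R => (ψ : G → ℂ) r)
      (isCharacter_restrict (isCharacter_of_isIrr ψ.2) R) hφ hψ (isCharacter_of_isIrr h.irr_base)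
      hover
  rwa [h.eq_of_over ψ.2 h1] at hψ

/-- Clifford's numbers for an intermediate normal subgroup. -/
lemma Ram.clifford_numbers (h : Ram Z θ χ) {R : Subgroup G} [R.Normal] [Fintype R] (hZR : Z ≤ R)
    {φ : R → ℂ} (hφ : IsIrrCharacter R φ) (hne : classInner (fun r : R => χ r) φ ≠ 0) :
    ∃ a : ℕ, a ≠ 0 ∧ a ^ 2 * (inertia R φ).index = R.index ∧
      χ 1 = (a : ℂ) * ((inertia R φ).index : ℂ) * φ 1 := by
  classical
  obtain ⟨a, ha⟩ := classInner_natCast (isCharacter_restrict (isCharacter_of_isIrr h.irr) R)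
    (isCharacter_of_isIrr hφ)
  have hc := clifford R h.irr hφ hne
  have hnorm : classInner (fun r : R => χ r) (fun r : R => χ r) =
      ((a ^ 2 * (inertia R φ).index : ℕ) : ℂ) := by
    have hone : ∀ ψ ∈ orbit R φ, classInner (∑ ψ' ∈ orbit R φ, ψ') ψ = (1 : ℂ) := by
      intro ψ hψ
      obtain ⟨g, rfl⟩ := (mem_orbit R).1 hψ
      rw [classInner_sum_left, Finset.sum_eq_single_of_mem _ hψ fun ψ' hψ' hne' => ?_]
      · exact classInner_irr_self (isIrrCharacter_conjChar R g hφ)
      · obtain ⟨g', rfl⟩ := (mem_orbit R).1 hψ'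
        exact classInner_irr_ne (isIrrCharacter_conjChar R g' hφ) (isIrrCharacter_conjChar R g hφ) hne'
    rw [hc, ha, classInner_smul_left, classInner_smul_right, classInner_sum_right,
      Finset.sum_congr rfl hone, Finset.sum_const, nsmul_one,
      card_orbit R φ (irr_degree_ne_zero hφ), map_natCast, Nat.cast_mul, Nat.cast_pow]
    ring
  refine ⟨a, fun h0 => hne (by rw [ha, h0, Nat.cast_zero]), ?_, ?_⟩
  · have h1 : ((∑ r : R, Complex.normSq (χ r) : ℝ) : ℂ) = (Nat.card G : ℂ) := by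
      have h2 : ∑ r : R, Complex.normSq (χ r) = ∑ x : G, Complex.normSq (χ x) := by
        rw [sum_split R fun x => Complex.normSq (χ x),
          Finset.sum_eq_zero (s := Finset.univ.filter fun x => x ∉ R) fun x hx => by
            rw [h.vanish fun hz => (Finset.mem_filter.1 hx).2 (hZR hz), map_zero],
          add_zero]
      have h3 := classInner_irr_self h.irr
      rw [classInner, inv_mul_eq_one₀ (card_ne_zero_complex G)] at h3
      rw [h2, Complex.ofReal_sum, h3]
      exact Finset.sum_congr rfl fun s _ => (Complex.mul_conj _).symm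
    rw [sum_normSq_subgroup, hnorm, ← Subgroup.card_mul_index R] at h1
    exact Nat.eq_of_mul_eq_mul_left (Nat.card_pos (α := R)) (by exact_mod_cast h1)
  · rw [clifford_degree R h.irr hφ hne, ha]

/-- A function on a subgroup seen inside an intermediate one. -/
def lift {Q R : Subgroup G} (φ : R → ℂ) : R.subgroupOf Q → ℂ := fun r => φ ⟨r.1.1, r.2⟩

lemma isIrr_lift {Q R : Subgroup G} (hRQ : R ≤ Q) {φ : R → ℂ} (hφ : IsIrrCharacter R φ) :
    IsIrrCharacter (R.subgroupOf Q) (lift (Q := Q) φ) :=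
  isIrrCharacter_comp_equiv (Subgroup.subgroupOfEquivOfLe hRQ) hφ

lemma classInner_lift {Q R : Subgroup G} [Fintype R] [Fintype (R.subgroupOf Q)] (hRQ : R ≤ Q)
    (φ φ' : R → ℂ) :
    classInner (lift (Q := Q) φ) (lift (Q := Q) φ') = classInner φ φ' :=
  classInner_comp_equiv (Subgroup.subgroupOfEquivOfLe hRQ) φ φ'

/-- Fully ramified in every subgroup of `p'`-index above `Z` with `p`-power quotient. -/
theorem Ram.sylow [Z.Normal] (h : Ram Z θ χ) {p : ℕ} (hp : p.Prime) {Q : Subgroup G}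
    [Fintype Q] [Fintype (Z.subgroupOf Q)] (hZQ : Z ≤ Q) (hidx : ¬ p ∣ Q.index) {j : ℕ}
    (hj : Z.relIndex Q = p ^ j) :
    ∃ (ψ : Q → ℂ) (m : ℕ), Ram (Z.subgroupOf Q) (lift θ) ψ ∧ ¬ p ∣ m ∧
      (∀ x : Q, χ x = (m : ℂ) * ψ x) := by
  classical
  obtain ⟨e, he0, he2, he, -⟩ := h.exists_e
  set θ' : Z.subgroupOf Q → ℂ := lift θ with hθ'
  have hθ'i : IsIrrCharacter (Z.subgroupOf Q) θ' := isIrr_lift hZQ h.irr_base
  have hinv : ∀ q : Q, conjChar (Z.subgroupOf Q) q θ' = θ' := fun q => funext fun z =>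
    congrFun (h.conj_eq (q : G)) ⟨z.1.1, z.2⟩
  have hrestr : (fun z : Z.subgroupOf Q => χ (z : Q)) = (e : ℂ) • θ' := funext fun z =>
    congrFun he ⟨z.1.1, z.2⟩
  -- every constituent is fully ramified
  have key : ∀ ψ : IrrCharacter Q, classInner (fun x : Q => χ x) (ψ : Q → ℂ) ≠ 0 →
      Ram (Z.subgroupOf Q) θ' (ψ : Q → ℂ) := by
    intro ψ hψ
    have hover : classInner (fun z : Z.subgroupOf Q => (ψ : Q → ℂ) z) θ' ≠ 0 := by
      have h1 := h.over_of_constituent hZQ ψ.2 hψ
      rw [← classInner_lift (Q := Q) hZQ] at h1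
      exact h1
    obtain ⟨d, hd⟩ := classInner_natCast
      (isCharacter_restrict (isCharacter_of_isIrr ψ.2) (Z.subgroupOf Q)) (isCharacter_of_isIrr hθ'i)
    have hres : ∀ z : Z.subgroupOf Q, (ψ : Q → ℂ) z = (d : ℂ) * θ' z := by
      intro z
      have hc := congrFun (clifford (Z.subgroupOf Q) ψ.2 hθ'i hover) z
      have horb : orbit (Z.subgroupOf Q) θ' = {θ'} := by
        ext x
        rw [mem_orbit, Finset.mem_singleton]
        exact ⟨fun ⟨g, hg⟩ => hg ▸ hinv g, fun hx => ⟨1, by rw [hinv, hx]⟩⟩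
      rw [hd, horb, Finset.sum_singleton] at hc
      exact hc
    have hle : d ^ 2 ≤ p ^ j := by
      have h1 : ∑ z : Z.subgroupOf Q, Complex.normSq ((ψ : Q → ℂ) z) =
          ((Nat.card (Z.subgroupOf Q) * d ^ 2 : ℕ) : ℝ) := by
        have h2 := sum_normSq_subgroup (Z.subgroupOf Q) (ψ : Q → ℂ)
        rw [show (fun z : Z.subgroupOf Q => (ψ : Q → ℂ) z) = (d : ℂ) • θ' from funext hres,
          classInner_smul_left, classInner_smul_right, classInner_irr_self hθ'i, mul_one,
          map_natCast, ← Nat.cast_mul, ← Nat.cast_mul, ← sq] at h2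
        exact_mod_cast h2
      have h3 : ∑ z : Z.subgroupOf Q, Complex.normSq ((ψ : Q → ℂ) z) ≤
          ∑ x : Q, Complex.normSq ((ψ : Q → ℂ) x) := by
        rw [sum_split (Z.subgroupOf Q) fun x => Complex.normSq ((ψ : Q → ℂ) x)]
        exact le_add_of_nonneg_right (Finset.sum_nonneg fun x _ => Complex.normSq_nonneg _)
      have h4 : ((∑ x : Q, Complex.normSq ((ψ : Q → ℂ) x) : ℝ) : ℂ) = (Nat.card Q : ℂ) := by
        have h5 := classInner_irr_self ψ.2
        rw [classInner, inv_mul_eq_one₀ (card_ne_zero_complex Q)] at h5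
        rw [Complex.ofReal_sum, h5]
        exact Finset.sum_congr rfl fun s _ => (Complex.mul_conj _).symm
      rw [h1, show (∑ x : Q, Complex.normSq ((ψ : Q → ℂ) x)) = ((Nat.card Q : ℕ) : ℝ) by
        exact_mod_cast h4, Nat.cast_le, ← Subgroup.card_mul_index (Z.subgroupOf Q),
        show (Z.subgroupOf Q).index = p ^ j from hj] at h3
      exact Nat.le_of_mul_le_mul_left h3 Nat.card_pos
    -- compare degrees through induction
    obtain ⟨a, ha⟩ := classInner_natCast (isCharacter_restrict (isCharacter_of_isIrr h.irr) Q)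
      (isCharacter_of_isIrr ψ.2)
    have hindeq : indFun Q (ψ : Q → ℂ) = (a : ℂ) • χ := by
      rw [eq_sum_classInner_smul (isClassFunction_indFun Q (ψ : Q → ℂ))]
      rw [Finset.sum_eq_single (⟨χ, h.irr⟩ : IrrCharacter G)]
      · rw [classInner_conj_symm, classInner_indFun_right Q _ (isClassFunction_of_isIrr h.irr),
          ha, map_natCast]
      · intro ξ _ hξ
        rw [classInner_conj_symm, classInner_indFun_right Q _ (isClassFunction_of_isIrr ξ.2)]
        suffices hz : classInner (fun x : Q => (ξ : G → ℂ) x) (ψ : Q → ℂ) = 0 by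
          rw [hz, map_zero, zero_smul]
        by_contra hne
        refine hξ (Subtype.ext (h.eq_of_over ξ.2 ?_))
        refine pullback_ne_zero (Subgroup.inclusion hZQ) (ψ := fun x : Q => (ξ : G → ℂ) x)
          (isCharacter_restrict (isCharacter_of_isIrr ξ.2) Q) ψ.2 hne
          (isCharacter_of_isIrr h.irr_base) ?_
        rw [← classInner_lift (Q := Q) hZQ]
        exact hover
      · exact fun hn => absurd (Finset.mem_univ _) hn
    have hdeg : Q.index * d = a * e := by
      have h1 := congrFun hindeq 1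
      rw [indFun_one, Pi.smul_apply, smul_eq_mul] at h1
      have h2 : χ 1 = (e : ℂ) * θ 1 := congrFun he 1
      have h3 : (ψ : Q → ℂ) 1 = (d : ℂ) * θ 1 := hres 1
      rw [h2, h3, ← mul_assoc, ← mul_assoc] at h1
      have h4 := mul_right_cancel₀ (irr_degree_ne_zero h.irr_base) h1
      exact_mod_cast h4
    have hcop : ∀ i : ℕ, Nat.Coprime (p ^ i) Q.index :=
      fun i => Nat.Coprime.pow_left i ((Nat.Prime.coprime_iff_not_dvd hp).2 hidx)
    have hmul : p ^ j * Q.index = e ^ 2 := by rw [he2, ← hj, Subgroup.relIndex_mul_index hZQ]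
    have hdvd : p ^ j ∣ d ^ 2 := by
      refine (Nat.Coprime.pow_right 2 (hcop j)).dvd_of_dvd_mul_left ?_
      rw [← mul_pow, hdeg, mul_pow, ← hmul]
      exact dvd_mul_of_dvd_right (dvd_mul_right _ _) _
    refine ⟨hθ'i, ψ.2, d, ?_, hres⟩
    rw [show (Z.subgroupOf Q).index = p ^ j from hj]
    refine le_antisymm hle (Nat.le_of_dvd ?_ hdvd)
    refine Nat.pos_of_ne_zero fun h0 => ?_
    have : d = 0 := pow_eq_zero_iff two_ne_zero |>.1 h0
    exact hover (by rw [hd, this, Nat.cast_zero])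
  obtain ⟨ψ, hψ⟩ := exists_constituent (isCharacter_restrict (isCharacter_of_isIrr h.irr) Q)
    (fun h0 => irr_degree_ne_zero h.irr (congrFun h0 (1 : Q)))
  have hψr := key ψ hψ
  obtain ⟨m, hm⟩ := classInner_natCast (isCharacter_restrict (isCharacter_of_isIrr h.irr) Q)
    (isCharacter_of_isIrr ψ.2)
  have hres : ∀ x : Q, χ x = (m : ℂ) * (ψ : Q → ℂ) x := by
    intro x
    have h1 := congrFun (eq_sum_classInner_smul
      (isClassFunction_of_isCharacter (isCharacter_restrict (isCharacter_of_isIrr h.irr) Q))) x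
    rw [Finset.sum_eq_single ψ (fun ξ _ hξ => ?_) (fun hn => absurd (Finset.mem_univ _) hn)] at h1
    · rw [Pi.smul_apply, smul_eq_mul, hm] at h1
      exact h1
    · suffices hz : classInner (fun y : Q => χ y) (ξ : Q → ℂ) = 0 by rw [hz, zero_smul]
      by_contra hne
      refine hξ (Subtype.ext (hψr.eq_of_over ξ.2 ?_))
      have h2 := h.over_of_constituent hZQ ξ.2 hne
      rw [← classInner_lift (Q := Q) hZQ] at h2
      exact h2
  refine ⟨(ψ : Q → ℂ), m, hψr, fun hdvd => ?_, hres⟩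
  obtain ⟨d, hd2, hd⟩ := hψr.mult
  have h1 : χ 1 = (e : ℂ) * θ 1 := congrFun he 1
  have h2 : (ψ : Q → ℂ) 1 = (d : ℂ) * θ 1 := hd 1
  have h3 := hres 1
  rw [Subgroup.coe_one, h1, h2, ← mul_assoc] at h3
  have h4 : e = m * d := by exact_mod_cast mul_right_cancel₀ (irr_degree_ne_zero h.irr_base) h3
  rw [show (Z.subgroupOf Q).index = p ^ j from hj] at hd2
  rw [h4, mul_pow, hd2, ← Subgroup.relIndex_mul_index hZQ, hj, mul_comm] at he2
  have h5 : Q.index = m ^ 2 := (Nat.eq_of_mul_eq_mul_left (pow_pos hp.pos j) he2).symm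
  exact hidx (h5 ▸ dvd_pow hdvd two_ne_zero)

end Cfsg.Agent.Lib.CharClifford.FullyRamified
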