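import Cfsg.Prelude.Def_Transfer
import Cfsg.Agent.Lib.Char.Scalar
import Cfsg.Agent.Lib.Char.Kernel
import Cfsg.Agent.Lib.Char.Degree
import Mathlib.Tactic

/-! Characters of extraspecial groups. -/

set_option autoImplicit false

namespace Cfsg.Agent.Lib.CharClifford

open Cfsg Cfsg.Agent.Lib.Char
open scoped ComplexConjugate

variable {P : Type*} [Group P] [Finite P] {p : ℕ} [Fact p.Prime]

theorem extraspecial_commutator_mem_center (hP : IsExtraspecial p P) (x y : P) :
    x * y * x⁻¹ * y⁻¹ ∈ Subgroup.center P := by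
  rw [← hP.1.2.2]
  exact Subgroup.commutator_mem_commutator (Subgroup.mem_top x) (Subgroup.mem_top y)

/-- A central element outside which a scalar acts kills the value at noncentral elements. -/
theorem eq_zero_of_scalar_center (hP : IsExtraspecial p P) {χ : P → ℂ} (hcf : IsClassFunction P χ)
    (hscal : ∀ z ∈ Subgroup.center P, z ≠ 1 → ∃ c : ℂ, c ≠ 1 ∧ ∀ g, χ (z * g) = c * χ g)
    {x : P} (hx : x ∉ Subgroup.center P) : χ x = 0 := by
  obtain ⟨y, hy⟩ : ∃ y : P, y * x ≠ x * y := by
    by_contra hc
    push Not at hc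
    exact hx (Subgroup.mem_center_iff.mpr hc)
  have hz1 : y * x * y⁻¹ * x⁻¹ ≠ 1 := fun e => hy (by
    rw [mul_inv_eq_one, mul_inv_eq_iff_eq_mul] at e
    exact e)
  obtain ⟨c, hc, hcg⟩ := hscal _ (extraspecial_commutator_mem_center hP y x) hz1
  have h := hcg x
  rw [inv_mul_cancel_right, hcf x y] at h
  have : (1 - c) * χ x = 0 := by linear_combination h
  exact (mul_eq_zero.mp this).resolve_left (sub_ne_zero.mpr hc.symm)

omit [Finite P] in
/-- A nontrivial element of the centre of an extraspecial group generates it. -/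
theorem center_le_zpowers (hP : IsExtraspecial p P) [Finite P] {a : P} (ha : a ∈ Subgroup.center P)
    (h1 : a ≠ 1) : Subgroup.center P = Subgroup.zpowers a := by
  have hp : p.Prime := Fact.out
  refine (Subgroup.eq_of_le_of_card_ge (Subgroup.zpowers_le.mpr ha) ?_).symm
  rw [hP.2, Nat.card_zpowers]
  have hd : orderOf a ∣ p := hP.2 ▸ Subgroup.orderOf_dvd_natCard _ ha
  rcases (Nat.dvd_prime hp).mp hd with h | h
  · exact absurd (orderOf_eq_one_iff.mp h) h1
  · exact h.ge

end Cfsg.Agent.Lib.CharClifford
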