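import Cfsg.Agent.Lib.CharClifford.FullyRamifiedSylow
import Cfsg.Agent.Lib.Char.Linear

/-!
# Free Sylow actions, and cyclic subgroups of fully ramified quotients
-/

namespace Cfsg.Agent.Lib.CharClifford.FullyRamified

open Cfsg Cfsg.Agent.Lib Cfsg.Agent.Lib.Char
open scoped ComplexConjugate

set_option linter.unusedSectionVars false
set_option linter.style.haveILetI false

universe u

variable {G : Type u} [Group G] [Fintype G] {p : ℕ} {Z K : Subgroup G}

lemma exists_relIndex_sup_sylow [Z.Normal] [hp : Fact p.Prime] (S : Sylow p G) :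
    ∃ j : ℕ, Z.relIndex (Z ⊔ (S : Subgroup G)) = p ^ j := by
  obtain ⟨k, hk⟩ := IsPGroup.iff_card.1 S.2
  have h1 : Z.relIndex (Z ⊔ (S : Subgroup G)) ∣ p ^ k := by
    rw [Subgroup.relIndex_sup_left, ← hk, Subgroup.relIndex]
    exact Subgroup.index_dvd_card _
  obtain ⟨i, -, hi⟩ := (Nat.dvd_prime_pow hp.out).1 h1
  exact ⟨i, hi⟩

/-- Trivial inertia inside the preimage gives a free action. -/
lemma free_of_inertia [Fintype Z] {θ : Z → ℂ} {Q : Subgroup G} (hZR : Z ≤ Q ⊓ K)
    [((Q ⊓ K).subgroupOf Q).Normal] {φ' : (Q ⊓ K).subgroupOf Q → ℂ}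
    (hφ : IsIrrCharacter ((Q ⊓ K).subgroupOf Q) φ')
    (hover : classInner (fun z : Z => φ' ⟨⟨z, (hZR z.2).1⟩, hZR z.2⟩) θ ≠ 0)
    (hT : inertia ((Q ⊓ K).subgroupOf Q) φ' ≤ (Q ⊓ K).subgroupOf Q) : Free θ K Q hZR := by
  refine ⟨fun r => φ' ((Subgroup.subgroupOfEquivOfLe inf_le_left).symm r),
    isIrrCharacter_comp_equiv (Subgroup.subgroupOfEquivOfLe inf_le_left).symm hφ, hover,
    fun q hq hqK => ?_⟩
  by_contra hno
  push Not at hno
  refine hqK (Subgroup.mem_subgroupOf.1 (hT (x := ⟨q, hq⟩) (funext fun n => ?_))).2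
  exact hno n.1.1 n.2 (((inferInstance : ((Q ⊓ K).subgroupOf Q).Normal).conj_mem n.1 n.2 ⟨q, hq⟩))

lemma normal_inf_subgroupOf [K.Normal] (Q : Subgroup G) : ((Q ⊓ K).subgroupOf Q).Normal :=
  ⟨fun n hn g => ⟨(g * n * g⁻¹).2,
    (inferInstance : K.Normal).conj_mem (n : G) (Subgroup.mem_subgroupOf.1 hn).2 g⟩⟩

/-- If `χ` is induced from `K`, the action is free. -/
theorem free_of_induced [Z.Normal] [Fintype Z] [K.Normal] [Fintype K] {θ : Z → ℂ} {χ : G → ℂ}
    (h : Ram Z θ χ) (hZK : Z ≤ K) [hp : Fact p.Prime] (S : Sylow p G) {φ₀ : K → ℂ}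
    (hφ₀ : IsCharacter K φ₀) (hind : indFun K φ₀ = χ) :
    Free θ K (Z ⊔ (S : Subgroup G)) (le_inf le_sup_left hZK) := by
  classical
  set Q := Z ⊔ (S : Subgroup G) with hQ
  obtain ⟨j, hj⟩ := exists_relIndex_sup_sylow (Z := Z) S
  haveI := Fintype.ofFinite Q
  haveI := Fintype.ofFinite (Z.subgroupOf Q)
  haveI := Fintype.ofFinite ↥(Q ⊓ K)
  haveI := normal_inf_subgroupOf (K := K) Q
  haveI := Fintype.ofFinite ((Q ⊓ K).subgroupOf Q)
  obtain ⟨ψ, m, hψ, hm, hχψ⟩ := h.sylow hp.out (Q := Q) le_sup_left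
    (fun hd => S.not_dvd_index (hd.trans (Subgroup.index_dvd_of_le le_sup_right))) hj
  have hZR : Z ≤ Q ⊓ K := le_inf le_sup_left hZK
  have hZRQ : Z.subgroupOf Q ≤ (Q ⊓ K).subgroupOf Q := Subgroup.comap_mono hZR
  have hK0 : φ₀ 1 ≠ 0 := fun h0 => irr_degree_ne_zero h.irr (by
    rw [← hind, indFun_one, h0, mul_zero])
  have hi : IsCharacter ↥(Q ⊓ K) (fun r : ↥(Q ⊓ K) => φ₀ ⟨r, r.2.2⟩) :=
    isCharacter_comp hφ₀ (Subgroup.inclusion inf_le_right)
  -- constituents of `φ₀` below `Q`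
  have hcon : ∀ ξ : IrrCharacter ↥(Q ⊓ K),
      classInner (fun r : ↥(Q ⊓ K) => φ₀ ⟨r, r.2.2⟩) (ξ : ↥(Q ⊓ K) → ℂ) ≠ 0 →
        classInner (fun z : Z.subgroupOf Q =>
          lift (Q := Q) (ξ : ↥(Q ⊓ K) → ℂ) ⟨z, hZRQ z.2⟩) (lift θ) ≠ 0 := by
    intro ξ hξ
    have h1 : classInner (fun r : ↥(Q ⊓ K) => χ r) (ξ : ↥(Q ⊓ K) → ℂ) ≠ 0 := by
      obtain ⟨n, hn⟩ := isCharacter_eq_sum hφ₀
      have hξ' := hξ
      rw [show (fun r : ↥(Q ⊓ K) => φ₀ ⟨r, r.2.2⟩) = ∑ φ : IrrCharacter K,
          (n φ : ℂ) • (fun r : ↥(Q ⊓ K) => (φ : K → ℂ) ⟨r, r.2.2⟩) from funext fun r => by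
        rw [hn]; simp [Finset.sum_apply], classInner_sum_left] at hξ'
      obtain ⟨φ, -, hφne⟩ := Finset.exists_ne_zero_of_sum_ne_zero hξ'
      rw [classInner_smul_left] at hφne
      have hφ0 : classInner φ₀ (φ : K → ℂ) ≠ 0 := by
        rw [hn, classInner_sum_left, Finset.sum_eq_single φ]
        · rw [classInner_smul_left, classInner_irr_self φ.2, mul_one]
          exact left_ne_zero_of_mul hφne
        · intro γ _ hγ
          rw [classInner_smul_left, classInner_irrCharacter, if_neg hγ, mul_zero]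
        · exact fun hn' => absurd (Finset.mem_univ φ) hn'
      obtain ⟨η, hη⟩ := exists_irr_over (G := G) (N := K) φ.2
      have hηK : IsCharacter K (fun k : K => (η : G → ℂ) k) :=
        isCharacter_restrict (isCharacter_of_isIrr η.2) K
      have hηe : (η : G → ℂ) = χ := by
        by_contra hne
        have h2 : classInner φ₀ (fun k : K => (η : G → ℂ) k) ≠ 0 :=
          pullback_ne_zero (MonoidHom.id K) (ψ := φ₀) hφ₀ φ.2 hφ0 hηK (by
            rw [show (fun a : K => (φ : K → ℂ) (MonoidHom.id K a)) = (φ : K → ℂ) from rfl,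
              classInner_conj_symm]
            exact (map_ne_zero _).2 hη)
        apply h2
        rw [classInner_conj_symm, ← classInner_indFun_right K φ₀ (isClassFunction_of_isIrr η.2),
          hind, classInner_irr_ne η.2 h.irr hne, map_zero]
      rw [hηe] at hη
      exact pullback_ne_zero (Subgroup.inclusion (inf_le_right : Q ⊓ K ≤ K))
        (ψ := fun k : K => χ k) (isCharacter_restrict (isCharacter_of_isIrr h.irr) K) φ.2 hη
        (isCharacter_of_isIrr ξ.2) (right_ne_zero_of_mul hφne)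
    have h3 := h.over_of_constituent hZR ξ.2 h1
    rw [← classInner_lift (Q := Q) (le_sup_left : Z ≤ Q)] at h3
    exact h3
  obtain ⟨η, hη⟩ := exists_constituent hi (fun h0 => hK0 (congrFun h0 1))
  have hη' := isIrr_lift (Q := Q) inf_le_left η.2
  have hηψ := hψ.constituent_of_over hZRQ hη' (hcon η hη)
  have hdeg : ∀ ξ : IrrCharacter ↥(Q ⊓ K),
      classInner (fun r : ↥(Q ⊓ K) => φ₀ ⟨r, r.2.2⟩) (ξ : ↥(Q ⊓ K) → ℂ) ≠ 0 →
        (ξ : ↥(Q ⊓ K) → ℂ) 1 = (η : ↥(Q ⊓ K) → ℂ) 1 := by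
    intro ξ hξ
    obtain ⟨g, hg⟩ := conjugate_of_constituents ((Q ⊓ K).subgroupOf Q) hψ.irr hη'
      (isIrr_lift inf_le_left ξ.2) hηψ
      (hψ.constituent_of_over hZRQ (isIrr_lift inf_le_left ξ.2) (hcon ξ hξ))
    have h1 := congrFun hg 1
    rw [conjChar_apply_one] at h1
    exact h1.symm
  obtain ⟨k, hk⟩ : ∃ k : ℕ, φ₀ 1 = (k : ℂ) * (η : ↥(Q ⊓ K) → ℂ) 1 := by
    obtain ⟨n, hn⟩ := isCharacter_eq_sum hi
    refine ⟨∑ ξ : IrrCharacter ↥(Q ⊓ K), n ξ, ?_⟩
    have h1 := congrFun hn 1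
    simp only [Finset.sum_apply, Pi.smul_apply, smul_eq_mul] at h1
    rw [Nat.cast_sum, Finset.sum_mul]
    refine h1.trans (Finset.sum_congr rfl fun ξ _ => ?_)
    by_cases hne : classInner (fun r : ↥(Q ⊓ K) => φ₀ ⟨r, r.2.2⟩) (ξ : ↥(Q ⊓ K) → ℂ) = 0
    · have h2 : (n ξ : ℂ) = 0 := by
        rw [hn, classInner_sum_left, Finset.sum_eq_single ξ] at hne
        · rwa [classInner_smul_left, classInner_irr_self ξ.2, mul_one] at hne
        · intro γ _ hγ
          rw [classInner_smul_left, classInner_irrCharacter, if_neg hγ, mul_zero]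
        · exact fun hn' => absurd (Finset.mem_univ ξ) hn'
      rw [h2, zero_mul, zero_mul]
    · rw [hdeg ξ hne]
  obtain ⟨a, ha0, ha, haψ⟩ := hψ.clifford_numbers hZRQ hη' hηψ
  set t := (inertia ((Q ⊓ K).subgroupOf Q) (lift (Q := Q) (η : ↥(Q ⊓ K) → ℂ))).index with ht
  have hη1 : lift (Q := Q) (η : ↥(Q ⊓ K) → ℂ) 1 = (η : ↥(Q ⊓ K) → ℂ) 1 := rfl
  have hmat : m * (a * t) = K.index * k := by
    have h1 := hχψ 1
    rw [Subgroup.coe_one, ← hind, indFun_one, hk, haψ, hη1] at h1
    have h2 : ((K.index * k : ℕ) : ℂ) * (η : ↥(Q ⊓ K) → ℂ) 1 =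
        ((m * (a * t) : ℕ) : ℂ) * (η : ↥(Q ⊓ K) → ℂ) 1 := by
      push_cast; linear_combination h1
    exact (Nat.cast_injective (mul_right_cancel₀ (irr_degree_ne_zero η.2) h2)).symm
  have hRK : ((Q ⊓ K).subgroupOf Q).index ∣ K.index := by
    show (Q ⊓ K).relIndex Q ∣ K.index
    rw [Subgroup.inf_relIndex_left]
    exact Subgroup.relIndex_dvd_index_of_normal _ _
  have ham : a ∣ m := by
    have h1 : a * (a * t) ∣ m * (a * t) := by
      rw [hmat, ← mul_assoc, ← sq, ha]
      exact dvd_mul_of_dvd_left hRK k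
    exact Nat.dvd_of_mul_dvd_mul_right (Nat.pos_of_ne_zero (mul_ne_zero ha0
      Subgroup.index_ne_zero_of_finite)) h1
  have hap : a ∣ p ^ j := by
    rw [← hj]
    refine (dvd_pow_self a two_ne_zero).trans ((dvd_mul_right _ t).trans ?_)
    rw [ha]
    exact Subgroup.index_dvd_of_le hZRQ
  have ha1 : a = 1 := Nat.eq_one_of_dvd_coprimes
    ((Nat.Coprime.pow_left j ((Nat.Prime.coprime_iff_not_dvd hp.out).2 hm))) hap ham
  rw [ha1, one_pow, one_mul] at ha
  refine free_of_inertia (φ' := lift (Q := Q) (η : ↥(Q ⊓ K) → ℂ)) hZR hη' ?_ ?_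
  · have h1 := hcon η hη
    rw [← classInner_lift (Q := Q) (le_sup_left : Z ≤ Q)]
    exact h1
  · have hle := le_inertia ((Q ⊓ K).subgroupOf Q) (isClassFunction_of_isIrr hη')
    exact (Subgroup.eq_of_le_of_card_ge hle (le_of_eq (Nat.eq_of_mul_eq_mul_right
      (Nat.pos_of_ne_zero Subgroup.index_ne_zero_of_finite) (by
        rw [Subgroup.card_mul_index]
        conv_rhs => rw [show (inertia ((Q ⊓ K).subgroupOf Q)
          (lift (Q := Q) (η : ↥(Q ⊓ K) → ℂ))).index = ((Q ⊓ K).subgroupOf Q).index from ha]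
        rw [Subgroup.card_mul_index])))).ge

/-- If the Sylow subgroups of the quotient are cyclic, the action is free. -/
theorem free_of_cyclic [Z.Normal] [Fintype Z] [K.Normal] {θ : Z → ℂ} {χ : G → ℂ}
    (h : Ram Z θ χ) (hZK : Z ≤ K) [hp : Fact p.Prime] (S : Sylow p G)
    (hcyc : IsCyclic ((S : Subgroup G).map (QuotientGroup.mk' K))) :
    Free θ K (Z ⊔ (S : Subgroup G)) (le_inf le_sup_left hZK) := by
  classical
  set Q := Z ⊔ (S : Subgroup G) with hQ
  obtain ⟨j, hj⟩ := exists_relIndex_sup_sylow (Z := Z) S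
  haveI := Fintype.ofFinite Q
  haveI := Fintype.ofFinite (Z.subgroupOf Q)
  haveI := Fintype.ofFinite ↥(Q ⊓ K)
  haveI := normal_inf_subgroupOf (K := K) Q
  haveI := Fintype.ofFinite ((Q ⊓ K).subgroupOf Q)
  obtain ⟨ψ, m, hψ, -, -⟩ := h.sylow hp.out (Q := Q) le_sup_left
    (fun hd => S.not_dvd_index (hd.trans (Subgroup.index_dvd_of_le le_sup_right))) hj
  have hZR : Z ≤ Q ⊓ K := le_inf le_sup_left hZK
  have hZRQ : Z.subgroupOf Q ≤ (Q ⊓ K).subgroupOf Q := Subgroup.comap_mono hZR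
  set R := (Q ⊓ K).subgroupOf Q with hR
  obtain ⟨φ', hφ'⟩ := exists_constituent (G := R) (φ := fun r : R => ψ r)
    (isCharacter_restrict (isCharacter_of_isIrr hψ.irr) R)
    (fun h0 => irr_degree_ne_zero hψ.irr (congrFun h0 1))
  have hover := hψ.over_of_constituent hZRQ φ'.2 hφ'
  set T := inertia R (φ' : R → ℂ) with hT
  have hRT : R ≤ T := le_inertia R (isClassFunction_of_isIrr φ'.2)
  haveI := Fintype.ofFinite T
  haveI := Fintype.ofFinite (R.subgroupOf T)
  haveI hcycT : IsCyclic (T ⧸ R.subgroupOf T) := by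
    let f : T →* G ⧸ K := (QuotientGroup.mk' K).comp (Q.subtype.comp T.subtype)
    have hker : f.ker = R.subgroupOf T := by
      ext t
      rw [MonoidHom.mem_ker, Subgroup.mem_subgroupOf, hR, Subgroup.mem_subgroupOf]
      exact (QuotientGroup.eq_one_iff _).trans ⟨fun hk => ⟨(t : Q).2, hk⟩, fun hk => hk.2⟩
    have hle : f.range ≤ (S : Subgroup G).map (QuotientGroup.mk' K) := by
      rintro _ ⟨t, rfl⟩
      obtain ⟨z, hz, s, hs, hzs⟩ := Subgroup.mem_sup_of_normal_left.1 (t : Q).2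
      refine ⟨s, hs, ?_⟩
      show QuotientGroup.mk' K s = QuotientGroup.mk' K ((t : Q) : G)
      rw [← hzs, map_mul, show QuotientGroup.mk' K z = 1 from
        (QuotientGroup.eq_one_iff z).2 (hZK hz), one_mul]
    haveI : IsCyclic f.range := isCyclic_of_injective (Subgroup.inclusion hle)
      (Subgroup.inclusion_injective hle)
    have e := (QuotientGroup.quotientMulEquivOfEq hker.symm).trans
      (QuotientGroup.quotientKerEquivRange f)
    exact isCyclic_of_injective e.toMonoidHom e.injective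
  have hinv : ∀ t : T, conjChar (R.subgroupOf T) t (lift (φ' : R → ℂ)) = lift (φ' : R → ℂ) :=
    fun t => funext fun n => congrFun (t.2 : conjChar R (t : Q) (φ' : R → ℂ) = φ') ⟨n.1.1, n.2⟩
  obtain ⟨η, hη, hηext⟩ := extends_of_cyclic (N := R.subgroupOf T) (isIrr_lift hRT φ'.2) hinv hcycT
  have hres : resLe hRT η = (φ' : R → ℂ) := funext fun r => hηext ⟨⟨r, hRT r.2⟩, r.2⟩
  have hov : classInner (resLe hRT η) (φ' : R → ℂ) ≠ 0 := by
    rw [hres, classInner_irr_self φ'.2]; exact one_ne_zero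
  obtain ⟨hirr, -⟩ := indFun_correspondent R φ'.2 T rfl hRT hη hov
  have h1 : classInner (fun r : R => indFun T η r) (φ' : R → ℂ) ≠ 0 := by
    refine pullback_ne_zero (Subgroup.inclusion hRT) (ψ := fun x : T => indFun T η x)
      (isCharacter_restrict (isCharacter_of_isIrr hirr) T) hη ?_ (isCharacter_of_isIrr φ'.2) hov
    rw [classInner_conj_symm, map_ne_zero,
      ← classInner_indFun T η (isClassFunction_of_isIrr hirr), classInner_irr_self hirr]
    exact one_ne_zero
  have heq : indFun T η = ψ := hψ.eq_of_over hirr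
    (pullback_ne_zero (Subgroup.inclusion hZRQ) (ψ := fun r : R => indFun T η r)
      (isCharacter_restrict (isCharacter_of_isIrr hirr) R) φ'.2 h1
      (isCharacter_of_isIrr hψ.irr_base) hover)
  obtain ⟨a, -, ha, haψ⟩ := hψ.clifford_numbers hZRQ φ'.2 hφ'
  have h2 : η 1 = (φ' : R → ℂ) 1 := congrFun hres 1
  rw [← heq, indFun_one, h2, ← hT] at haψ
  have ha1 : a = 1 := by
    have h3 : ((T.index : ℕ) : ℂ) * (φ' : R → ℂ) 1 = ((a * T.index : ℕ) : ℂ) * (φ' : R → ℂ) 1 := by
      push_cast; linear_combination haψ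
    have h4 : T.index = a * T.index := Nat.cast_injective
      (mul_right_cancel₀ (irr_degree_ne_zero φ'.2) h3)
    exact Nat.eq_of_mul_eq_mul_right (Nat.pos_of_ne_zero Subgroup.index_ne_zero_of_finite)
      ((one_mul _).trans h4).symm
  rw [ha1, one_pow, one_mul, ← hT] at ha
  refine free_of_inertia (φ' := (φ' : R → ℂ)) hZR φ'.2 ?_ ?_
  · rw [← classInner_lift (Q := Q) (le_sup_left : Z ≤ Q)]
    exact hover
  · exact (Subgroup.eq_of_le_of_card_ge hRT (le_of_eq (Nat.eq_of_mul_eq_mul_right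
      (Nat.pos_of_ne_zero Subgroup.index_ne_zero_of_finite) (by
        rw [Subgroup.card_mul_index]
        conv_rhs => rw [ha]
        rw [Subgroup.card_mul_index])))).ge

/-- A cyclic self-centralising subgroup of a fully ramified quotient forces the quotient to be
trivial. -/
theorem centralizer_ne_of_cyclic [Z.Normal] [Fintype Z] {θ : Z → ℂ} {χ : G → ℂ}
    (h : Ram Z θ χ) (hZ : Z ≠ ⊤) (C : Subgroup (G ⧸ Z)) (hC : IsCyclic C) :
    Subgroup.centralizer (C : Set (G ⧸ Z)) ≠ C := by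
  classical
  intro hself
  obtain ⟨c, hc⟩ := hC.exists_generator
  set K := C.comap (QuotientGroup.mk' Z) with hK
  haveI := Fintype.ofFinite K
  haveI := Fintype.ofFinite (Z.subgroupOf K)
  have hZK : Z ≤ K := fun z hz => by
    rw [hK, Subgroup.mem_comap, QuotientGroup.mk'_apply, (QuotientGroup.eq_one_iff z).2 hz]
    exact one_mem C
  -- `C` is not trivial
  have hcard : 1 < Nat.card C := by
    by_contra hle
    have hbot : C = ⊥ := Subgroup.card_eq_one.1 (by
      have := Nat.card_pos (α := C); omega)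
    apply hZ
    rw [eq_top_iff]
    intro g _
    rw [← QuotientGroup.eq_one_iff, ← Subgroup.mem_bot, ← hbot, ← hself]
    exact Subgroup.mem_centralizer_iff.2 fun y hy => by
      rw [hbot, SetLike.mem_coe, Subgroup.mem_bot] at hy
      rw [hy, one_mul, mul_one]
  set ζ₀ : ℂ := Complex.exp (2 * Real.pi * Complex.I / (Nat.card C : ℕ)) with hζ₀
  have hprim : IsPrimitiveRoot ζ₀ (Nat.card C) := Complex.isPrimitiveRoot_exp _ Nat.card_pos.ne'
  set ζ : ℂˣ := Units.mk0 ζ₀ (hprim.ne_zero Nat.card_pos.ne') with hζ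
  have hord : orderOf ζ = Nat.card C := by
    rw [← orderOf_units, hζ, Units.val_mk0, ← hprim.eq_orderOf]
  let lam : C →* ℂˣ := monoidHomOfForallMemZpowers hc (g' := ζ) (by
    rw [hord, orderOf_eq_card_of_forall_mem_zpowers hc])
  let toC : K →* C :=
    { toFun := fun k => ⟨QuotientGroup.mk' Z k, k.2⟩
      map_one' := Subtype.ext (map_one _)
      map_mul' := fun a b => Subtype.ext (map_mul _ _ _) }
  have hlam : lam c = ζ := monoidHomOfForallMemZpowers_apply_gen hc _
  have hinj : ∀ x : C, lam x = ζ → x = c := by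
    intro x hx
    obtain ⟨i, rfl⟩ := Subgroup.mem_zpowers_iff.1 (hc x)
    rw [map_zpow, hlam] at hx
    conv_rhs => rw [← zpow_one c]
    rw [zpow_eq_zpow_iff_modEq, orderOf_eq_card_of_forall_mem_zpowers hc, ← hord,
      ← zpow_eq_zpow_iff_modEq, zpow_one]
    exact hx
  set l : K →* ℂˣ := lam.comp toC with hl
  have hlZ : ∀ n : Z.subgroupOf K, l (n : K) = 1 := fun n => by
    have h1 : toC (n : K) = 1 := Subtype.ext
      ((QuotientGroup.eq_one_iff _).2 (Subgroup.mem_subgroupOf.1 n.2))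
    rw [hl, MonoidHom.comp_apply, h1, map_one]
  haveI : IsCyclic (K ⧸ Z.subgroupOf K) := by
    have hker : Z.subgroupOf K = toC.ker := by
      ext k
      rw [MonoidHom.mem_ker, Subgroup.mem_subgroupOf, Subtype.ext_iff]
      exact (QuotientGroup.eq_one_iff _).symm
    have e := (QuotientGroup.quotientMulEquivOfEq hker).trans
      (QuotientGroup.quotientKerEquivOfSurjective toC fun x => by
        obtain ⟨g, hg⟩ := QuotientGroup.mk'_surjective Z (x : G ⧸ Z)
        exact ⟨⟨g, by rw [hK, Subgroup.mem_comap, hg]; exact x.2⟩, Subtype.ext hg⟩)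
    exact isCyclic_of_injective e.toMonoidHom e.injective
  have hinv : ∀ k : K, conjChar (Z.subgroupOf K) k (lift θ) = lift θ := fun k =>
    funext fun z => congrFun (h.conj_eq (k : G)) ⟨z.1.1, z.2⟩
  have hθ' := isIrr_lift (Q := K) hZK h.irr_base
  obtain ⟨η, hη, hηext⟩ := extends_of_cyclic hθ' hinv inferInstance
  set n := Nat.card C with hn
  let f : ℕ → K → ℂ := fun i => fun k => ((l ^ i) k : ℂ) * η k
  have hf : ∀ i, IsIrrCharacter K (f i) := fun i => isIrrCharacter_linear_mul hη (l ^ i)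
  have hfext : ∀ i (z : Z.subgroupOf K), f i z = lift θ z := fun i z => by
    show ((l ^ i) (z : K) : ℂ) * η z = _
    rw [MonoidHom.pow_apply, hlZ z, one_pow, Units.val_one, one_mul, hηext]
  obtain ⟨k₁, hk₁⟩ : ∃ k : K, toC k = c := by
    obtain ⟨g, hg⟩ := QuotientGroup.mk'_surjective Z (c : G ⧸ Z)
    exact ⟨⟨g, by rw [hK, Subgroup.mem_comap, hg]; exact c.2⟩, Subtype.ext hg⟩
  have hne : ∀ i, i < n → i ≠ 0 → f i ≠ η := by
    intro i hin hi0 he
    have hb := gallagher_bijOn (Z.subgroupOf K) (φ := fun _ => 1) isIrrCharacter_one (fun g => rfl)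
      (θ := lift θ) (by convert hθ' using 1; funext z; simp) (isCharacter_of_isIrr hη) hηext
    have hmem : ∀ i : ℕ, (fun k : K => ((l ^ i) k : ℂ)) ∈ {β : K → ℂ | IsIrrCharacter K β ∧
        classInner (indFun (Z.subgroupOf K) fun _ => (1 : ℂ)) β ≠ 0} := by
      intro i
      refine ⟨isIrrCharacter_linear (l ^ i), ?_⟩
      rw [classInner_conj_symm,
        classInner_indFun_right (Z.subgroupOf K) _ (isClassFunction_of_isIrr (isIrrCharacter_linear (l ^ i)))]
      rw [show (fun z : Z.subgroupOf K => ((l ^ i) (z : K) : ℂ)) = fun _ => 1 from funext fun z => by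
        rw [MonoidHom.pow_apply, hlZ z, one_pow, Units.val_one],
        classInner_irr_self isIrrCharacter_one, map_one]
      exact one_ne_zero
    have h1 := hb.2.1 (hmem i) (hmem 0) (by
      funext k
      show ((l ^ i) k : ℂ) * η k = ((l ^ 0) k : ℂ) * η k
      rw [MonoidHom.pow_apply _ 0, pow_zero, Units.val_one, one_mul]
      exact congrFun he k)
    have h2 : ((l ^ i) k₁ : ℂ) = ((l ^ 0) k₁ : ℂ) := congrFun h1 k₁
    rw [MonoidHom.pow_apply, MonoidHom.pow_apply, pow_zero, hl, MonoidHom.comp_apply, hk₁, hlam,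
      Units.val_one, Units.val_pow_eq_pow_val, hζ, Units.val_mk0] at h2
    exact hi0 (Nat.eq_zero_of_dvd_of_lt (hprim.pow_eq_one_iff_dvd i |>.1 h2) hin)
  set S : K → ℂ := ∑ i ∈ Finset.range n, (ζ₀⁻¹) ^ i • f i with hS
  have hSη : classInner S η = 1 := by
    rw [hS, classInner_sum_left, Finset.sum_eq_single 0]
    · rw [classInner_smul_left, pow_zero, one_mul,
        show f 0 = η from funext fun k => by
          show ((l ^ 0) k : ℂ) * η k = η k
          rw [MonoidHom.pow_apply _ 0, pow_zero, Units.val_one, one_mul],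
        classInner_irr_self hη]
    · intro i hi hi0
      rw [classInner_smul_left, classInner_irr_ne (hf i) hη (hne i (Finset.mem_range.1 hi) hi0),
        mul_zero]
    · exact fun h0 => absurd (Finset.mem_range.2 Nat.card_pos) h0
  have hSval : ∀ k : K, S k = if toC k = c then (n : ℂ) * η k else 0 := by
    intro k
    have h1 : S k = (∑ i ∈ Finset.range n, ((l k : ℂ) * ζ₀⁻¹) ^ i) * η k := by
      rw [hS, Finset.sum_apply, Finset.sum_mul]
      refine Finset.sum_congr rfl fun i _ => ?_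
      show ζ₀⁻¹ ^ i * (((l ^ i) k : ℂ) * η k) = _
      rw [MonoidHom.pow_apply, Units.val_pow_eq_pow_val, mul_pow]
      ring
    rw [h1]
    split_ifs with hk
    · rw [hl, MonoidHom.comp_apply, hk, hlam, hζ, Units.val_mk0,
        mul_inv_cancel₀ (hprim.ne_zero Nat.card_pos.ne')]
      simp
    · have h2 : ((l k : ℂ) * ζ₀⁻¹) ≠ 1 := by
        intro h3
        refine hk (hinj _ (Units.ext ?_))
        rw [mul_inv_eq_one₀ (hprim.ne_zero Nat.card_pos.ne')] at h3
        rw [hζ, Units.val_mk0]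
        exact h3
      rw [geom_sum_eq h2, mul_pow, inv_pow, hprim.pow_eq_one, inv_one, mul_one,
        show ((l k : ℂ) ^ n) = 1 by
          rw [hl, MonoidHom.comp_apply, ← Units.val_pow_eq_pow_val, ← map_pow, hn,
            pow_card_eq_one', map_one, Units.val_one],
        sub_self, zero_div, zero_mul]
  obtain ⟨k₀, hk₀⟩ : ∃ k : K, S k ≠ 0 := by
    by_contra! hall
    rw [show S = 0 from funext hall] at hSη
    simp [classInner] at hSη
  rw [hSval] at hk₀
  split_ifs at hk₀ with hk₀c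
  swap
  · exact hk₀ rfl
  have hη0 : η k₀ ≠ 0 := right_ne_zero_of_mul hk₀
  have hk0Z : (k₀ : G) ∉ Z := by
    intro hz
    have hc1 : c = 1 := hk₀c.symm.trans (Subtype.ext ((QuotientGroup.eq_one_iff _).2 hz))
    have h1 := orderOf_eq_card_of_forall_mem_zpowers hc
    rw [hc1, orderOf_one] at h1
    omega
  -- the induced function is a multiple of `χ`
  have hfχ : ∀ i, ∃ a : ℂ, indFun K (f i) = a • χ := by
    intro i
    refine ⟨classInner (indFun K (f i)) χ, ?_⟩
    conv_lhs => rw [eq_sum_classInner_smul (isClassFunction_indFun K (f i))]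
    refine Finset.sum_eq_single (⟨χ, h.irr⟩ : IrrCharacter G) (fun ξ _ hξ => ?_)
      (fun h0 => absurd (Finset.mem_univ _) h0)
    rw [classInner_conj_symm, classInner_indFun_right K _ (isClassFunction_of_isIrr ξ.2)]
    suffices hz : classInner (fun x : K => (ξ : G → ℂ) x) (f i) = 0 by rw [hz, map_zero, zero_smul]
    by_contra hne'
    refine hξ (Subtype.ext (h.eq_of_over ξ.2 ?_))
    refine pullback_ne_zero (Subgroup.inclusion hZK) (ψ := fun x : K => (ξ : G → ℂ) x)
      (isCharacter_restrict (isCharacter_of_isIrr ξ.2) K) (hf i) hne'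
      (isCharacter_of_isIrr h.irr_base) ?_
    rw [← classInner_lift (Q := K) hZK,
      show lift (Q := K) (fun z : Z => f i (Subgroup.inclusion hZK z)) = lift θ from
        funext fun z => hfext i z,
      classInner_irr_self hθ']
    exact one_ne_zero
  have hzero : indFun K S (k₀ : G) = 0 := by
    rw [hS, indFun_sum, Finset.sum_apply]
    refine Finset.sum_eq_zero fun i _ => ?_
    obtain ⟨a, ha⟩ := hfχ i
    rw [indFun_smul, ha, Pi.smul_apply, Pi.smul_apply, h.vanish hk0Z, smul_zero, smul_zero]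
  apply hk₀
  have hval : indFun K S (k₀ : G) = (n : ℂ) * η k₀ := by
    simp only [indFun]
    rw [inv_mul_eq_iff_eq_mul₀ (card_ne_zero_complex K)]
    have hterm : ∀ x : G, extendByZero K S (x⁻¹ * k₀ * x) =
        if x ∈ K then (n : ℂ) * η k₀ else 0 := by
      intro x
      by_cases hxK : x ∈ K
      · rw [if_pos hxK, extendByZero_mem K S (mul_mem (mul_mem (inv_mem hxK) k₀.2) hxK),
          show (⟨x⁻¹ * k₀ * x, mul_mem (mul_mem (inv_mem hxK) k₀.2) hxK⟩ : K) =
            (⟨x, hxK⟩ : K)⁻¹ * k₀ * ⟨x, hxK⟩ from rfl, hSval]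
        have hcomm : toC ((⟨x, hxK⟩ : K)⁻¹ * k₀ * ⟨x, hxK⟩) = c := by
          haveI : IsCyclic C := hC
          letI : CommGroup C := IsCyclic.commGroup
          rw [map_mul, map_mul, map_inv, mul_comm ((toC ⟨x, hxK⟩)⁻¹), inv_mul_cancel_right, hk₀c]
        rw [if_pos hcomm]
        congr 1
        have := isClassFunction_of_isIrr hη k₀ (⟨x, hxK⟩ : K)⁻¹
        rwa [inv_inv] at this
      · rw [if_neg hxK]
        by_cases hmem : x⁻¹ * k₀ * x ∈ K
        · rw [extendByZero_mem K S hmem, hSval, if_neg]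
          intro hcx
          apply hxK
          show QuotientGroup.mk' Z x ∈ C
          rw [← hself, Subgroup.mem_centralizer_iff]
          intro y hy
          obtain ⟨i, hi⟩ := Subgroup.mem_zpowers_iff.1 (hc ⟨y, hy⟩)
          have hcomm : Commute (c : G ⧸ Z) (QuotientGroup.mk' Z x) := by
            have h1 : QuotientGroup.mk' Z (x⁻¹ * k₀ * x) = (c : G ⧸ Z) := congrArg Subtype.val hcx
            have h2 : QuotientGroup.mk' Z (k₀ : G) = (c : G ⧸ Z) := congrArg Subtype.val hk₀c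
            rw [map_mul, map_mul, map_inv, h2] at h1
            show (c : G ⧸ Z) * QuotientGroup.mk' Z x = QuotientGroup.mk' Z x * (c : G ⧸ Z)
            conv_rhs => rw [← h1]
            group
          rw [show y = (c : G ⧸ Z) ^ i by rw [← Subgroup.coe_zpow, hi]]
          exact (hcomm.zpow_left i).eq
        · exact extendByZero_not_mem K S hmem
    rw [Finset.sum_congr rfl fun x _ => hterm x, ← Finset.sum_filter, Finset.sum_const,
      nsmul_eq_mul, ← Fintype.card_subtype, ← Nat.card_eq_fintype_card]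
  rw [← hval, hzero]

end Cfsg.Agent.Lib.CharClifford.FullyRamified
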