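import Cfsg.Agent.Lib.CharClifford.FullyRamified
import Cfsg.Agent.Lib.Block.PParts

/-!
# Complements to Sylow subgroups of sections of fully ramified quotients
-/

namespace Cfsg.Agent.Lib.CharClifford.FullyRamified

open Cfsg Cfsg.Agent.Lib Cfsg.Agent.Lib.Char
open scoped ComplexConjugate

set_option linter.unusedSectionVars false
set_option linter.style.haveILetI false

universe u

variable {G : Type u} [Group G] [Fintype G] {p : ℕ} {Z K Q : Subgroup G}

/-- A Sylow subgroup of the quotient acts freely on some character over `θ`. -/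
def Free (θ : Z → ℂ) (K Q : Subgroup G) (hZR : Z ≤ Q ⊓ K) [Fintype Z] : Prop :=
  ∃ φ : (↥(Q ⊓ K)) → ℂ, IsIrrCharacter ↥(Q ⊓ K) φ ∧
    classInner (fun z : Z => φ ⟨z, hZR z.2⟩) θ ≠ 0 ∧
    ∀ q ∈ Q, q ∉ K → ∃ (r : G) (hr : r ∈ Q ⊓ K) (hr' : q * r * q⁻¹ ∈ Q ⊓ K),
      φ ⟨q * r * q⁻¹, hr'⟩ ≠ φ ⟨r, hr⟩

/-- If a preimage of a Sylow subgroup acts freely, the Sylow subgroup has a complement. -/
theorem exists_complement_of_free [Z.Normal] [Fintype Z] [K.Normal] {θ : Z → ℂ} {χ : G → ℂ}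
    (h : Ram Z θ χ) (hZK : Z ≤ K) [hp : Fact p.Prime] (S : Sylow p G)
    (hfree : Free θ K (Z ⊔ (S : Subgroup G)) (le_inf le_sup_left hZK)) (P : Sylow p (G ⧸ K)) :
    ∃ M : Subgroup (G ⧸ K), M.IsComplement' (P : Subgroup (G ⧸ K)) ∧ M.index = Nat.card P := by
  classical
  set Q := Z ⊔ (S : Subgroup G) with hQ
  set R := Q ⊓ K with hR
  have hZR : Z ≤ R := le_inf le_sup_left hZK
  obtain ⟨φ, hφ, hφover, hfree⟩ := hfree
  haveI := Fintype.ofFinite R
  haveI := Fintype.ofFinite Q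
  haveI := Fintype.ofFinite (Z.subgroupOf Q)
  have hSQ : (S : Subgroup G) ≤ Q := le_sup_right
  have hRdec : ∀ r ∈ R, ∃ z ∈ Z, ∃ s ∈ (S : Subgroup G) ⊓ K, r = z * s := by
    rintro r ⟨hrQ, hrK⟩
    obtain ⟨z, hz, s, hs, rfl⟩ := Subgroup.mem_sup_of_normal_left.1 hrQ
    refine ⟨z, hz, s, ⟨hs, ?_⟩, rfl⟩
    rw [show s = z⁻¹ * (z * s) by rw [inv_mul_cancel_left]]
    exact K.mul_mem (K.inv_mem (hZK hz)) hrK
  set L := Subgroup.normalizer (R : Set G) with hL
  have hQL : Q ≤ L := by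
    intro q hq
    rw [hL, Subgroup.mem_normalizer_iff]
    intro r
    constructor
    · rintro ⟨h1, h2⟩
      exact ⟨Q.mul_mem (Q.mul_mem hq h1) (Q.inv_mem hq), (inferInstance : K.Normal).conj_mem r h2 q⟩
    · rintro ⟨h1, h2⟩
      refine ⟨?_, ?_⟩
      · rw [show r = q⁻¹ * (q * r * q⁻¹) * q by group]
        exact Q.mul_mem (Q.mul_mem (Q.inv_mem hq) h1) hq
      · rw [show r = q⁻¹ * (q * r * q⁻¹) * q⁻¹⁻¹ by group]
        exact (inferInstance : K.Normal).conj_mem _ h2 q⁻¹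
  have hnorm : Subgroup.normalizer (((S : Subgroup G) ⊓ K : Subgroup G) : Set G) ≤ L := by
    intro x hx
    have hconj : ∀ y ∈ Subgroup.normalizer (((S : Subgroup G) ⊓ K : Subgroup G) : Set G),
        ∀ r ∈ R, y * r * y⁻¹ ∈ R := by
      intro y hy r hr
      obtain ⟨z, hz, s, hs, rfl⟩ := hRdec r hr
      rw [show y * (z * s) * y⁻¹ = (y * z * y⁻¹) * (y * s * y⁻¹) by group]
      exact mul_mem (hZR ((inferInstance : Z.Normal).conj_mem z hz y))
        ⟨hSQ ((Subgroup.mem_normalizer_iff.1 hy s).1 hs).1,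
          ((Subgroup.mem_normalizer_iff.1 hy s).1 hs).2⟩
    rw [hL, Subgroup.mem_normalizer_iff]
    refine fun r => ⟨hconj x hx r, fun hr => ?_⟩
    have h1 := hconj x⁻¹ (inv_mem hx) _ hr
    rwa [show x⁻¹ * (x * r * x⁻¹) * x⁻¹⁻¹ = r by group] at h1
  -- Frattini
  have hKL : K ⊔ L = ⊤ := by
    have hrel : ¬ p ∣ ((S : Subgroup G).subgroupOf K).index := by
      intro hd
      refine S.not_dvd_index (hd.trans ?_)
      show (S : Subgroup G).relIndex K ∣ (S : Subgroup G).index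
      have h1 : (S : Subgroup G).relIndex K ∣ (S : Subgroup G).relIndex (K ⊔ (S : Subgroup G)) := by
        have h2 := Subgroup.relIndex_sup_right (H := (S : Subgroup G)) (K := K)
        have h3 := Subgroup.card_mul_index ((S : Subgroup G).subgroupOf K)
        refine Nat.dvd_of_mul_dvd_mul_left (Nat.card_pos (α := ↥((S : Subgroup G) ⊓ K))) ?_
        have h4 : Nat.card ↥((S : Subgroup G).subgroupOf K) = Nat.card ↥((S : Subgroup G) ⊓ K) := by
          rw [← Subgroup.inf_subgroupOf_right]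
          exact Nat.card_congr (Subgroup.subgroupOfEquivOfLe inf_le_right).toEquiv
        have h5 := Subgroup.card_mul_index (K.subgroupOf (K ⊔ (S : Subgroup G)))
        have h6 := Subgroup.card_mul_index ((S : Subgroup G).subgroupOf (K ⊔ (S : Subgroup G)))
        have h7 := Subgroup.card_mul_index (K.subgroupOf (S : Subgroup G))
        rw [Nat.card_congr (Subgroup.subgroupOfEquivOfLe (le_sup_left : K ≤ K ⊔ (S : Subgroup G))).toEquiv] at h5
        rw [Nat.card_congr (Subgroup.subgroupOfEquivOfLe (le_sup_right : (S : Subgroup G) ≤ K ⊔ (S : Subgroup G))).toEquiv] at h6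
        have h8 : Nat.card ↥(K.subgroupOf (S : Subgroup G)) = Nat.card ↥((S : Subgroup G) ⊓ K) := by
          rw [← Subgroup.inf_subgroupOf_left]
          exact Nat.card_congr (Subgroup.subgroupOfEquivOfLe inf_le_left).toEquiv
        rw [sup_comm] at h2
        simp only [Subgroup.relIndex] at h2 ⊢
        rw [h8, ← h2] at h7
        rw [h4] at h3
        refine ⟨(K.subgroupOf (K ⊔ (S : Subgroup G))).index * 0 + 1, ?_⟩
        rw [Nat.mul_zero, Nat.zero_add, mul_one, h3]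
        refine Nat.eq_of_mul_eq_mul_right (Nat.pos_of_ne_zero Subgroup.index_ne_zero_of_finite :
          0 < (K.subgroupOf (K ⊔ (S : Subgroup G))).index) ?_
        rw [mul_right_comm, h7, h6, h5]
      exact h1.trans (Subgroup.relIndex_dvd_index_of_le le_sup_right)
    let SK : Sylow p K := (S.2.comap_of_injective K.subtype K.subtype_injective).toSylow hrel
    have h1 := Sylow.normalizer_sup_eq_top SK
    have h2 : (SK : Subgroup K).map K.subtype = (S : Subgroup G) ⊓ K := by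
      show ((S : Subgroup G).comap K.subtype).map K.subtype = _
      rw [Subgroup.map_comap_eq, Subgroup.range_subtype, inf_comm]
    rw [h2] at h1
    rw [eq_top_iff, ← h1]
    exact sup_le (hnorm.trans le_sup_right) le_sup_left
  -- the stabiliser
  haveI := Fintype.ofFinite L
  haveI := Fintype.ofFinite (R.subgroupOf L)
  haveI : (R.subgroupOf L).Normal := Subgroup.normal_in_normalizer
  set φ' : R.subgroupOf L → ℂ := lift φ with hφ'
  set T := inertia (R.subgroupOf L) φ' with hT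
  set M : Subgroup (G ⧸ K) := (T.map L.subtype).map (QuotientGroup.mk' K) with hM
  -- transitivity of `Q`
  obtain ⟨ψ, m, hψ, -, hχψ⟩ := h.sylow (p := p) hp.out (Q := Q) le_sup_left
    (fun hd => S.not_dvd_index (hd.trans (Subgroup.index_dvd_of_le hSQ)))
    (j := ((Z : Subgroup G).relIndex Q).factorization p) (by
      obtain ⟨k, hk⟩ := IsPGroup.iff_card.1 S.2
      have h1 : Z.relIndex Q ∣ p ^ k := by
        rw [hQ, Subgroup.relIndex_sup_left, ← hk, Subgroup.relIndex]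
        exact Subgroup.index_dvd_card _
      obtain ⟨i, -, hi⟩ := (Nat.dvd_prime_pow hp.out).1 h1
      rw [hi, hp.out.factorization_pow, Finsupp.single_eq_same])
  haveI : (R.subgroupOf Q).Normal := ⟨fun n hn g =>
    ⟨(g * n * g⁻¹).2, (inferInstance : K.Normal).conj_mem (n : G) (Subgroup.mem_subgroupOf.1 hn).2 g⟩⟩
  haveI := Fintype.ofFinite (R.subgroupOf Q)
  have hZRQ : Z.subgroupOf Q ≤ R.subgroupOf Q := Subgroup.comap_mono hZR
  have hZRover : ∀ f : R → ℂ, classInner (fun z : Z => f ⟨z, hZR z.2⟩) θ ≠ 0 →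
      classInner (fun z : Z.subgroupOf Q => lift (Q := Q) f ⟨z, hZRQ z.2⟩) (lift θ) ≠ 0 := by
    intro f hf
    rw [← classInner_lift (Q := Q) (le_sup_left : Z ≤ Q)] at hf
    exact hf
  have hcomp : ∀ l : L, ∃ q : Q, ∀ (r : G) (hr : r ∈ R) (h1 : (l : G) * r * (l : G)⁻¹ ∈ R)
      (h2 : (q : G) * r * (q : G)⁻¹ ∈ R), φ ⟨_, h2⟩ = φ ⟨_, h1⟩ := by
    intro l
    have hl : ∀ r : R, (l : G) * r * (l : G)⁻¹ ∈ R := fun r =>
      (Subgroup.mem_normalizer_iff.1 l.2 r).1 r.2
    let c : R →* R :=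
      { toFun := fun r => ⟨(l : G) * r * (l : G)⁻¹, hl r⟩
        map_one' := Subtype.ext (by simp)
        map_mul' := fun a b => Subtype.ext (by simp [mul_assoc]) }
    have hc : Function.Surjective c := fun r => by
      refine ⟨⟨(l : G)⁻¹ * r * (l : G)⁻¹⁻¹, (Subgroup.mem_normalizer_iff.1 (inv_mem l.2) r).1 r.2⟩,
        Subtype.ext ?_⟩
      show (l : G) * ((l : G)⁻¹ * r * (l : G)⁻¹⁻¹) * (l : G)⁻¹ = r
      group
    have hψi : IsIrrCharacter R (φ ∘ c) := Char.isIrrCharacter_comp hφ c hc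
    have hover : classInner (fun z : Z => (φ ∘ c) ⟨z, hZR z.2⟩) θ ≠ 0 := by
      have he : (fun z : Z => (φ ∘ c) ⟨z, hZR z.2⟩) =
          conjChar Z (l : G) (fun z : Z => φ ⟨z, hZR z.2⟩) := funext fun z => rfl
      rw [he, ← h.conj_eq (l : G), classInner_conjChar]
      exact hφover
    obtain ⟨q, hq⟩ := conjugate_of_constituents (R.subgroupOf Q) hψ.irr
      (isIrr_lift inf_le_left hφ) (isIrr_lift inf_le_left hψi)
      (hψ.constituent_of_over hZRQ (isIrr_lift inf_le_left hφ) (hZRover φ hφover))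
      (hψ.constituent_of_over hZRQ (isIrr_lift inf_le_left hψi) (hZRover _ hover))
    refine ⟨q, fun r hr h1 h2 => ?_⟩
    exact congrFun hq ⟨⟨r, hr.1⟩, hr⟩
  -- every element of `L` lies in `T Q`
  have hTQ : ∀ l : L, ∃ q : Q, l * (⟨q, hQL q.2⟩ : L)⁻¹ ∈ T := by
    intro l
    obtain ⟨q, hq⟩ := hcomp l
    refine ⟨q, funext fun r => ?_⟩
    have hr : (r : L).1 ∈ R := Subgroup.mem_subgroupOf.1 r.2
    have hs : (q : G)⁻¹ * (r : L).1 * (q : G)⁻¹⁻¹ ∈ R :=
      (Subgroup.mem_normalizer_iff.1 (inv_mem (hQL q.2)) _).1 hr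
    show φ _ = φ _
    have key := hq _ hs ((Subgroup.mem_normalizer_iff.1 l.2 _).1 hs)
      ((Subgroup.mem_normalizer_iff.1 (hQL q.2) _).1 hs)
    refine (congrArg φ (Subtype.ext ?_)).trans (key.symm.trans (congrArg φ (Subtype.ext ?_)))
    · simp [mul_assoc]
    · simp [mul_assoc]
  -- `p`-elements of `T` lie in `R`
  let SL : Sylow p L := S.subtype (hSQ.trans hQL)
  have hpel : ∀ t ∈ T, (∃ k : ℕ, orderOf (t : L) = p ^ k) → (t : G) ∈ R := by
    intro t ht hk
    obtain ⟨k, hk⟩ := hk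
    have hZp : IsPGroup p (Subgroup.zpowers t) := IsPGroup.of_card (n := k) (by rw [Nat.card_zpowers, hk])
    obtain ⟨Pt, hPt⟩ := hZp.exists_le_sylow
    obtain ⟨g, hg⟩ := MulAction.exists_smul_eq L Pt SL
    have hgt : (g : G) * t * (g : G)⁻¹ ∈ (S : Subgroup G) := by
      have h1 : g * t * g⁻¹ ∈ (g • Pt : Sylow p L) :=
        ⟨t, hPt (Subgroup.mem_zpowers t), by simp⟩
      rw [hg] at h1
      exact h1
    obtain ⟨q, hq⟩ := hTQ g⁻¹
    -- with `g = q⁻¹ u⁻¹` for `u ∈ T`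
    set u : L := g⁻¹ * (⟨q, hQL q.2⟩ : L)⁻¹ with hu
    have hu' : u⁻¹ * t * u ∈ T := mul_mem (mul_mem (inv_mem hq) ht) hq
    have hmemQ : ((u⁻¹ * t * u : L) : G) ∈ Q := by
      have h2 : ((u⁻¹ * t * u : L) : G) = (q : G) * ((g : G) * t * (g : G)⁻¹) * (q : G)⁻¹ := by
        simp [hu, mul_assoc]
      rw [h2]
      exact mul_mem (mul_mem q.2 (hSQ hgt)) (inv_mem q.2)
    have hR' : ((u⁻¹ * t * u : L) : G) ∈ R := by
      refine ⟨hmemQ, ?_⟩
      by_contra hK
      obtain ⟨r, hr, hr', hne⟩ := hfree _ hmemQ hK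
      exact hne (congrFun hu' ⟨⟨r, Subgroup.le_normalizer hr⟩, hr⟩)
    have h3 := (Subgroup.mem_normalizer_iff.1 u.2 _).1 hR'
    rwa [show (u : G) * ((u⁻¹ * t * u : L) : G) * (u : G)⁻¹ = t by simp [mul_assoc]] at h3
  have hM1 : ¬ p ∣ Nat.card M := by
    intro hd
    obtain ⟨y, hy⟩ := exists_prime_orderOf_dvd_card' p hd
    obtain ⟨x, ⟨t, ht, rfl⟩, hxy⟩ := y.2
    obtain ⟨z, hz⟩ := Block.exists_isPPart (p := p) t
    have hzT : z ∈ T := Subgroup.zpowers_le.2 ht (Block.IsPPart.mem_zpowers hz)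
    obtain ⟨s, hs1, -, hs3, hs4⟩ := hz
    have hzR : (z : G) ∈ K := (hpel z hzT hs3).2
    have h1 : (QuotientGroup.mk' K) (L.subtype s) = (y : G ⧸ K) := by
      rw [← hxy, ← hs1, map_mul, map_mul, show (QuotientGroup.mk' K) (L.subtype z) = 1 from
        (QuotientGroup.eq_one_iff _).2 hzR, one_mul]
    apply hs4
    refine dvd_trans ?_ (orderOf_map_dvd ((QuotientGroup.mk' K).comp L.subtype) s)
    rw [MonoidHom.comp_apply, h1, Subgroup.orderOf_coe, hy]
  -- the image of `S`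
  have hS0 : IsPGroup p ((S : Subgroup G).map (QuotientGroup.mk' K)) := S.2.map _
  have hS0i : ¬ p ∣ ((S : Subgroup G).map (QuotientGroup.mk' K)).index := fun hd =>
    S.not_dvd_index (hd.trans (Subgroup.index_map_dvd _ (QuotientGroup.mk'_surjective K)))
  set P0 : Sylow p (G ⧸ K) := hS0.toSylow hS0i with hP0
  have hcop : Nat.Coprime (Nat.card M) (Nat.card P0) := by
    obtain ⟨k, hk⟩ := IsPGroup.iff_card.1 P0.2
    rw [hk]
    exact (Nat.Coprime.pow_left k ((Nat.Prime.coprime_iff_not_dvd hp.out).2 hM1)).symm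
  have hc0 : M.IsComplement' (P0 : Subgroup (G ⧸ K)) := by
    refine Subgroup.isComplement'_of_disjoint_and_mul_eq_univ
      (disjoint_iff.2 (Subgroup.inf_eq_bot_of_coprime hcop)) (Set.eq_univ_of_forall fun y => ?_)
    obtain ⟨g, rfl⟩ := QuotientGroup.mk'_surjective K y
    obtain ⟨k, hk, l, hl, rfl⟩ := Subgroup.mem_sup_of_normal_left.1 (hKL.ge (Subgroup.mem_top g))
    obtain ⟨q, hq⟩ := hTQ ⟨l, hl⟩
    obtain ⟨z, hz, s, hs, hzs⟩ := Subgroup.mem_sup_of_normal_left.1 q.2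
    refine ⟨QuotientGroup.mk' K (l * (q : G)⁻¹), ⟨_, ⟨_, hq, rfl⟩, rfl⟩, QuotientGroup.mk' K s,
      Subgroup.mem_map_of_mem _ hs, ?_⟩
    have h1 : QuotientGroup.mk' K k = 1 := (QuotientGroup.eq_one_iff k).2 hk
    have h2 : QuotientGroup.mk' K z = 1 := (QuotientGroup.eq_one_iff z).2 (hZK hz)
    simp only [← hzs, map_mul, map_inv, h1, h2, one_mul, inv_mul_cancel_right]
  have hcard := hc0.card_mul
  have hPP : Nat.card P = Nat.card P0 := by rw [P.card_eq_multiplicity, P0.card_eq_multiplicity]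
  refine ⟨M, Subgroup.isComplement'_of_coprime (by rw [hPP]; exact hcard) (by rw [hPP]; exact hcop), ?_⟩
  rw [hPP]
  exact Nat.eq_of_mul_eq_mul_left Nat.card_pos ((Subgroup.card_mul_index M).trans hcard.symm)

end Cfsg.Agent.Lib.CharClifford.FullyRamified
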